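import Cfsg.Agent.Lib.Helper53.Zas.PGL

/-!
# Fixed-point-free linear representations: invariant planes
-/

set_option autoImplicit false
set_option linter.style.haveILetI false
set_option linter.unusedSectionVars false

namespace Cfsg.Agent.Lib.Helper53.Zas

open Matrix

variable {G : Type*} [Group G] {E V : Type*} [Field E] [AddCommGroup V] [Module E V]

/-- fixed-point-free linear representation -/
def FPF (ρ : G →* Module.End E V) : Prop := ∀ g : G, g ≠ 1 → ∀ v : V, ρ g v = v → v = 0

theorem rho_mul (ρ : G →* Module.End E V) (g h : G) (v : V) : ρ (g * h) v = ρ g (ρ h v) := by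
  rw [map_mul]; rfl

theorem rho_one (ρ : G →* Module.End E V) (v : V) : ρ 1 v = v := by
  rw [map_one]; rfl

theorem rho_inv_apply (ρ : G →* Module.End E V) (g : G) (v : V) : ρ g⁻¹ (ρ g v) = v := by
  rw [← rho_mul, inv_mul_cancel, rho_one]

theorem rho_apply_inv (ρ : G →* Module.End E V) (g : G) (v : V) : ρ g (ρ g⁻¹ v) = v := by
  rw [← rho_mul, mul_inv_cancel, rho_one]

theorem rho_injective (ρ : G →* Module.End E V) (g : G) : Function.Injective (ρ g) := by
  intro a b h
  have := congrArg (ρ g⁻¹) h
  rwa [rho_inv_apply, rho_inv_apply] at this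

theorem FPF.eq_of_apply {ρ : G →* Module.End E V} (h : FPF ρ) {a b : G} {v : V} (hv : v ≠ 0)
    (e : ρ a v = ρ b v) : a = b := by
  by_contra hab
  have h1 : b⁻¹ * a ≠ 1 := by
    intro h2
    apply hab
    have := congrArg (fun t => b * t) h2
    simp only [mul_inv_cancel_left, mul_one] at this
    exact this
  apply hv
  apply h _ h1
  rw [rho_mul, e, rho_inv_apply]

/-- the stabiliser of a subspace -/
def stab [Finite G] (ρ : G →* Module.End E V) (U : Submodule E V) : Subgroup G where
  carrier := {g | ∀ u ∈ U, ρ g u ∈ U}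
  mul_mem' := by
    intro a b ha hb u hu
    rw [rho_mul]
    exact ha _ (hb _ hu)
  one_mem' := by
    intro u hu
    rw [rho_one]; exact hu
  inv_mem' := by
    intro a ha
    have hpow : ∀ k : ℕ, ∀ u ∈ U, ρ (a ^ k) u ∈ U := by
      intro k
      induction k with
      | zero => intro u hu; rw [pow_zero, rho_one]; exact hu
      | succ k ih =>
        intro u hu
        rw [pow_succ, rho_mul]
        exact ih _ (ha _ hu)
    have h1 : a⁻¹ = a ^ (orderOf a - 1) := by
      have h2 : 0 < orderOf a := orderOf_pos a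
      rw [eq_comm, ← mul_eq_one_iff_eq_inv, ← pow_succ, Nat.sub_add_cancel h2, pow_orderOf_eq_one]
    intro u hu
    change ρ a⁻¹ u ∈ U
    rw [h1]
    exact hpow _ u hu

theorem mem_stab [Finite G] {ρ : G →* Module.End E V} {U : Submodule E V} {g : G} :
    g ∈ stab ρ U ↔ ∀ u ∈ U, ρ g u ∈ U := Iff.rfl

/-- membership in the stabiliser of a plane -/
theorem mem_stab_span [Finite G] {ρ : G →* Module.End E V} {u v : V} {g : G}
    (hu : ρ g u ∈ Submodule.span E {u, v}) (hv : ρ g v ∈ Submodule.span E {u, v}) :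
    g ∈ stab ρ (Submodule.span E {u, v}) := by
  intro x hx
  obtain ⟨a, b, rfl⟩ := Submodule.mem_span_pair.1 hx
  rw [map_add, map_smul, map_smul]
  exact Submodule.add_mem _ (Submodule.smul_mem _ _ hu) (Submodule.smul_mem _ _ hv)

theorem plane [Finite G] [IsAlgClosed E] (r : ℕ) [Fact r.Prime] [CharP E r]
    {ρ : G →* Module.End E V} (hρ : FPF ρ) (u v : V) (hli : LinearIndependent E ![u, v])
    (X : Subgroup G) (hX : X ≤ stab ρ (Submodule.span E {u, v})) :
    (∀ a b : X, a * b = b * a) ∨
    (∃ B : Subgroup X, (∀ g : X, g ^ 2 ∈ B) ∧ ∀ a ∈ B, ∀ b ∈ B, a * b = b * a) ∨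
    (∃ f : X →* alternatingGroup (Fin 4), Function.Surjective f ∧ f.ker ≤ Subgroup.center X) ∨
    (∃ f : X →* Equiv.Perm (Fin 4), Function.Surjective f ∧ f.ker ≤ Subgroup.center X) ∨
    (∃ f : X →* alternatingGroup (Fin 5), Function.Surjective f ∧ f.ker ≤ Subgroup.center X) := by
  classical
  have hrange : Set.range ![u, v] = {u, v} := by
    ext x
    simp only [Set.mem_range, Set.mem_insert_iff, Set.mem_singleton_iff]
    constructor
    · rintro ⟨i, rfl⟩
      fin_cases i <;> simp
    · rintro (rfl | rfl)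
      · exact ⟨0, rfl⟩
      · exact ⟨1, rfl⟩
  set U : Submodule E V := Submodule.span E (Set.range ![u, v]) with hU
  have hX' : ∀ g : X, ∀ x ∈ U, ρ (g : G) x ∈ U := by
    intro g x hx
    rw [hU, hrange] at hx ⊢
    exact hX g.2 x hx
  let b : Module.Basis (Fin 2) E U := Module.Basis.span hli
  let τ : X →* Module.End E U :=
    { toFun := fun g => (ρ (g : G)).restrict (hX' g)
      map_one' := by
        ext x
        simp [LinearMap.restrict_apply]
      map_mul' := by
        intro g h
        ext x
        simp [LinearMap.restrict_apply] }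
  let ψ : X →* Matrix (Fin 2) (Fin 2) E :=
    ((LinearMap.toMatrixAlgEquiv b).toAlgHom.toRingHom : Module.End E U →* _).comp τ
  let φ : X →* GL (Fin 2) E := ψ.toHomUnits
  apply planeP r φ
  intro g hg c hc
  have h1 : (φ g : Matrix (Fin 2) (Fin 2) E) = LinearMap.toMatrix b b (τ g) := rfl
  rw [h1] at hc
  set x : U := b.equivFun.symm c with hx
  have h2 : (b.repr x : Fin 2 → E) = c := by
    have := b.equivFun.apply_symm_apply c
    rw [← hx] at this
    exact this
  rw [← h2, LinearMap.toMatrix_mulVec_repr] at hc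
  have h3 : τ g x = x := by
    apply b.repr.injective
    exact DFunLike.coe_injective hc
  have h4 : ρ (g : G) (x : V) = x := congrArg Subtype.val h3
  have h5 : (x : V) = 0 := hρ g (fun h => hg (Subtype.ext h)) _ h4
  have h6 : x = 0 := Subtype.ext h5
  rw [← h2, h6]
  simp

end Cfsg.Agent.Lib.Helper53.Zas
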