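import Cfsg.Agent.Lib.Helper41.Dickson.Master

/-!
# Finite fixed-point-free subgroups of `GL₂(E)`, `E` algebraically closed of characteristic `r`
-/

set_option autoImplicit false
set_option linter.style.haveILetI false
set_option linter.unusedSectionVars false

namespace Cfsg.Agent.Lib.Helper53.Zas

open Matrix OnePoint MulAction
open scoped MatrixGroups
open Cfsg.Agent.Lib.Helper41.Dickson

variable {E : Type*} [Field E] [IsAlgClosed E]
variable {X : Type*} [Group X] [Finite X]

/-- a common eigenvector forces commutativity -/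
theorem comm_of_common_eigen (φ : X →* GL (Fin 2) E)
    (hfpf : ∀ g : X, g ≠ 1 → ∀ v : Fin 2 → E,
      (φ g : Matrix (Fin 2) (Fin 2) E).mulVec v = v → v = 0)
    (v : Fin 2 → E) (hv : v ≠ 0)
    (hc : ∀ g : X, ∃ c : E, (φ g : Matrix (Fin 2) (Fin 2) E).mulVec v = c • v) (a b : X) :
    a * b = b * a := by
  by_contra hab
  have h1 : (b * a)⁻¹ * (a * b) ≠ 1 := by
    intro h
    apply hab
    have := congrArg (fun t => (b * a) * t) h
    simp only [mul_inv_cancel_left, mul_one] at this
    exact this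
  apply hv
  apply hfpf _ h1
  obtain ⟨ca, hca⟩ := hc a
  obtain ⟨cb, hcb⟩ := hc b
  have h2 : (φ (a * b) : Matrix (Fin 2) (Fin 2) E).mulVec v =
      (φ (b * a) : Matrix (Fin 2) (Fin 2) E).mulVec v := by
    rw [map_mul, map_mul, Units.val_mul, Units.val_mul, ← Matrix.mulVec_mulVec,
      ← Matrix.mulVec_mulVec, hca, hcb, Matrix.mulVec_smul, Matrix.mulVec_smul, hca, hcb,
      smul_smul, smul_smul, mul_comm]
  have h3 : (φ ((b * a)⁻¹ * (a * b)) : Matrix (Fin 2) (Fin 2) E).mulVec v =
      (φ ((b * a)⁻¹) : Matrix (Fin 2) (Fin 2) E).mulVec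
        ((φ (a * b) : Matrix (Fin 2) (Fin 2) E).mulVec v) := by
    rw [map_mul (f := φ) ((b * a)⁻¹), Units.val_mul, Matrix.mulVec_mulVec]
  rw [h3, h2, Matrix.mulVec_mulVec, ← Units.val_mul, ← map_mul]
  simp

theorem phi_injective (φ : X →* GL (Fin 2) E)
    (hfpf : ∀ g : X, g ≠ 1 → ∀ v : Fin 2 → E,
      (φ g : Matrix (Fin 2) (Fin 2) E).mulVec v = v → v = 0) : Function.Injective φ := by
  rw [injective_iff_map_eq_one]
  intro g hg
  by_contra hne
  have := hfpf g hne ![1, 0] (by rw [hg]; simp)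
  have h0 := congrFun this 0
  simp at h0

theorem not_dvd_card (r : ℕ) [Fact r.Prime] [CharP E r] (φ : X →* GL (Fin 2) E)
    (hfpf : ∀ g : X, g ≠ 1 → ∀ v : Fin 2 → E,
      (φ g : Matrix (Fin 2) (Fin 2) E).mulVec v = v → v = 0) : ¬ r ∣ Nat.card X := by
  intro hr
  obtain ⟨h, hh⟩ := exists_prime_orderOf_dvd_card' r hr
  have hne : h ≠ 1 := by
    rintro rfl
    rw [orderOf_one] at hh
    exact (Fact.out : r.Prime).one_lt.ne hh
  set M : Matrix (Fin 2) (Fin 2) E := (φ h : Matrix (Fin 2) (Fin 2) E) with hM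
  have hMr : M ^ r = 1 := by
    rw [hM, ← Units.val_pow_eq_pow_val, ← map_pow, ← hh, pow_orderOf_eq_one]
    simp
  have h1 : (M - 1) ^ r = 0 := by
    rw [sub_pow_char_of_commute _ (Commute.one_right M), hMr, one_pow, sub_self]
  have h2 : (M - 1).det = 0 := by
    have := congrArg Matrix.det h1
    rw [Matrix.det_pow, Matrix.det_zero] at this
    exact pow_eq_zero_iff (Fact.out : r.Prime).ne_zero |>.1 this
  obtain ⟨v, hv, hv0⟩ := Matrix.exists_mulVec_eq_zero_iff.2 h2
  apply hv
  apply hfpf h hne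
  rw [Matrix.sub_mulVec, Matrix.one_mulVec, sub_eq_zero] at hv0
  exact hv0

theorem planeP (r : ℕ) [Fact r.Prime] [CharP E r] (φ : X →* GL (Fin 2) E)
    (hfpf : ∀ g : X, g ≠ 1 → ∀ v : Fin 2 → E,
      (φ g : Matrix (Fin 2) (Fin 2) E).mulVec v = v → v = 0) :
    (∀ a b : X, a * b = b * a) ∨
    (∃ B : Subgroup X, (∀ g : X, g ^ 2 ∈ B) ∧ ∀ a ∈ B, ∀ b ∈ B, a * b = b * a) ∨
    (∃ f : X →* alternatingGroup (Fin 4), Function.Surjective f ∧ f.ker ≤ Subgroup.center X) ∨
    (∃ f : X →* Equiv.Perm (Fin 4), Function.Surjective f ∧ f.ker ≤ Subgroup.center X) ∨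
    (∃ f : X →* alternatingGroup (Fin 5), Function.Surjective f ∧ f.ker ≤ Subgroup.center X) := by
  classical
  have hinj := phi_injective φ hfpf
  let π : X →* Matrix.ProjGenLinGroup (Fin 2) E := Matrix.ProjGenLinGroup.mk.comp φ
  have hker : π.ker ≤ Subgroup.center X := by
    intro g hg
    rw [MonoidHom.mem_ker] at hg
    have h1 : φ g ∈ Subgroup.center (GL (Fin 2) E) := Matrix.ProjGenLinGroup.mk_eq_one.1 hg
    rw [Subgroup.mem_center_iff]
    intro h
    apply hinj
    rw [map_mul, map_mul]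
    exact Subgroup.mem_center_iff.1 h1 (φ h)
  let Γ : Subgroup (Matrix.ProjGenLinGroup (Fin 2) E) := π.range
  haveI : Finite Γ := Finite.of_surjective π.rangeRestrict π.rangeRestrict_surjective
  have hA : Mob (Matrix.ProjGenLinGroup (Fin 2) E) (OnePoint E) := pgl_mob
  have hM : Mob Γ (OnePoint E) := hA.subgroup Γ
  have hkr : π.rangeRestrict.ker = π.ker := π.ker_rangeRestrict
  rcases hM.classify with ⟨x, hx⟩ | ⟨x, hq, hn, ⟨e⟩⟩ | ⟨⟨e⟩⟩ | ⟨⟨e⟩⟩ | ⟨⟨e⟩⟩ | ⟨x, hq, hn⟩
  · left
    have hx' : ∀ g : X, Matrix.ProjGenLinGroup.mk (φ g) • x = x := fun g =>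
      hx ⟨π g, g, rfl⟩
    cases x with
    | infty =>
      apply comm_of_common_eigen φ hfpf ![1, 0]
      · intro h
        have := congrFun h 0
        simp at this
      · intro g
        have h1 := (fix_infty_iff (φ g)).1 (hx' g)
        refine ⟨φ g 0 0, ?_⟩
        ext i
        fin_cases i
        · simp [Matrix.mulVec, dotProduct, Fin.sum_univ_two]
        · simpa [Matrix.mulVec, dotProduct, Fin.sum_univ_two] using h1
    | coe z =>
      apply comm_of_common_eigen φ hfpf ![z, 1]
      · intro h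
        have := congrFun h 1
        simp at this
      · intro g
        have h1 := (fix_coe_iff (φ g) z).1 (hx' g)
        refine ⟨φ g 1 0 * z + φ g 1 1, ?_⟩
        ext i
        fin_cases i
        · simp only [Matrix.mulVec, dotProduct, Fin.sum_univ_two]
          simp
          linear_combination -h1
        · simp [Matrix.mulVec, dotProduct, Fin.sum_univ_two]
  · right; left
    let θ : X →* DihedralGroup (hM.e x) := e.toMonoidHom.comp π.rangeRestrict
    have hθk : θ.ker ≤ Subgroup.center X := by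
      intro g hg
      apply hker
      rw [← hkr, MonoidHom.mem_ker]
      rw [MonoidHom.mem_ker] at hg
      exact e.injective (by simpa [θ] using hg)
    let R : Subgroup (DihedralGroup (hM.e x)) := Subgroup.zpowers (DihedralGroup.r 1)
    have hr : ∀ i : ZMod (hM.e x), DihedralGroup.r i ∈ R := by
      intro i
      obtain ⟨k, rfl⟩ := ZMod.intCast_surjective i
      exact ⟨k, by simp⟩
    refine ⟨R.comap θ, ?_, ?_⟩
    · intro g
      rw [Subgroup.mem_comap, map_pow]
      cases θ g with
      | r i =>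
        exact R.pow_mem (hr i) 2
      | sr i =>
        rw [pow_two, DihedralGroup.sr_mul_self]
        exact R.one_mem
    · intro a ha b hb
      let f : R.comap θ →* R := θ.subgroupComap R
      have hf : f.ker ≤ Subgroup.center (R.comap θ) := by
        intro c hc
        rw [MonoidHom.mem_ker] at hc
        have h1 : θ (c : X) = 1 := congrArg Subtype.val hc
        have h2 := hθk (MonoidHom.mem_ker.2 h1)
        rw [Subgroup.mem_center_iff] at h2 ⊢
        intro d
        exact Subtype.ext (h2 d)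
      have := (MonoidHom.isMulCommutative_of_isCyclic_of_ker_le_center f hf).is_comm.comm
        ⟨a, ha⟩ ⟨b, hb⟩
      exact congrArg Subtype.val this
  · right; right; left
    refine ⟨e.toMonoidHom.comp π.rangeRestrict,
      e.surjective.comp π.rangeRestrict_surjective, ?_⟩
    intro g hg
    apply hker
    rw [← hkr, MonoidHom.mem_ker]
    rw [MonoidHom.mem_ker] at hg
    exact e.injective (by simpa using hg)
  · right; right; right; left
    refine ⟨e.toMonoidHom.comp π.rangeRestrict,
      e.surjective.comp π.rangeRestrict_surjective, ?_⟩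
    intro g hg
    apply hker
    rw [← hkr, MonoidHom.mem_ker]
    rw [MonoidHom.mem_ker] at hg
    exact e.injective (by simpa using hg)
  · right; right; right; right
    refine ⟨e.toMonoidHom.comp π.rangeRestrict,
      e.surjective.comp π.rangeRestrict_surjective, ?_⟩
    intro g hg
    apply hker
    rw [← hkr, MonoidHom.mem_ker]
    rw [MonoidHom.mem_ker] at hg
    exact e.injective (by simpa using hg)
  · exfalso
    have hnt : Nontrivial (hM.Q x) := by
      rw [← Finite.one_lt_card_iff_nontrivial]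
      change 1 < hM.qq x
      omega
    obtain ⟨⟨u₀, hu₀⟩, hu₀1⟩ := exists_ne (1 : hM.Q x)
    have hu₀1' : u₀ ≠ 1 := fun hcon => hu₀1 (Subtype.ext hcon)
    have h1 : (u₀ : Matrix.ProjGenLinGroup (Fin 2) E) ^ r = 1 :=
      pgl_par_pow r _ ((uni_subgroup_iff Γ u₀).1 hu₀.2)
    have h2 : u₀ ^ r = 1 := Subtype.ext (by simpa using h1)
    have h3 : orderOf u₀ = r := orderOf_eq_prime h2 hu₀1'
    have h4 : r ∣ Nat.card Γ := h3 ▸ orderOf_dvd_natCard u₀
    have h5 : Nat.card Γ ∣ Nat.card X :=
      Subgroup.card_dvd_of_surjective π.rangeRestrict π.rangeRestrict_surjective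
    exact not_dvd_card r φ hfpf (h4.trans h5)

end Cfsg.Agent.Lib.Helper53.Zas
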